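import Cfsg.Agent.KFS.Defs
import Cfsg.Agent.Fus.Comp
import Cfsg.Agent.Fus.GroupNormal
import Cfsg.Agent.Fus.GrpImg
import Cfsg.Agent.Gold.S4Free
import Cfsg.Agent.Trans.Involves

/-!
# The 2-fusion systems of the known simple groups: transport and small lemmas
-/

set_option autoImplicit false

namespace Cfsg.Lib.KFS

open Subgroup Cfsg Cfsg.FusionSystem Cfsg.Lib.Fus Cfsg.Lib.Fus.Grp

variable {G : Type*} [Group G] [Finite G] {L : Type*} [Group L]

namespace Bas

omit [Finite G] in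
/-- Strong closure is inherited by preimages. -/
theorem sc_comap {T S : Subgroup L} (h : IsStronglyClosed T S) (f : G →* L) :
    IsStronglyClosed (T.comap f) (S.comap f) :=
  ⟨comap_mono h.1, fun x hx g hg => by
    rw [mem_comap, map_mul, map_mul, map_inv] at hg ⊢
    exact h.2 _ hx _ hg⟩

omit [Finite G] in
theorem cl2_map {T : Subgroup G} (h : Cl2 T) (f : G →* L) : Cl2 (T.map f) := by
  rw [Cl2, ← map_commutator, ← map_commutator, h, Subgroup.map_bot]

omit [Finite G] in
theorem cl2_mono {T U : Subgroup G} (h : Cl2 T) (hU : U ≤ T) : Cl2 U :=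
  le_bot_iff.1 ((commutator_mono (commutator_mono hU hU) hU).trans h.le)

omit [Finite G] in
theorem syl_comap {S : Subgroup L} (hS : IsSylowIn 2 S ⊤) (e : G ≃* L) :
    IsSylowIn 2 (S.comap (e : G →* L)) ⊤ := by
  have := hS.map_of_injective (e.symm : L →* G) e.symm.injective
  rwa [map_top_of_surjective _ e.symm.surjective, map_equiv_eq_comap_symm] at this

/-- Transport of the absence of strongly closed subgroups. -/
theorem transport {Φ : Subgroup G → Prop} {Ψ : Subgroup L → Prop} {S : Subgroup G}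
    (hS : IsSylowIn 2 S ⊤) (h : ∀ T, IsStronglyClosed T S → Φ T → S ≤ T) (e : G ≃* L)
    (hΦ : ∀ (e : G ≃* L) (T : Subgroup L), Ψ T → Φ (T.comap (e : G →* L))) {S' T : Subgroup L}
    (hS' : IsSylowIn 2 S' ⊤) (hT : IsStronglyClosed T S') (h1 : Ψ T) : S' ≤ T := by
  obtain ⟨g, -, hg⟩ := (syl_comap hS' e).exists_map_conj_eq hS
  have e1 : S'.comap ((MulAut.conj g).trans e : G →* L) = S := by
    ext x
    change g * x * g⁻¹ ∈ S'.comap (e : G →* L) ↔ _
    rw [← hg, mem_map_conj_iff]; simp [mul_assoc]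
  have := h _ (e1 ▸ sc_comap hT _) (hΦ _ T h1)
  rw [← e1] at this
  exact (comap_le_comap_of_surjective ((MulAut.conj g).trans e).surjective).1 this

omit [Finite G] in
theorem ne_bot_comap (e : G ≃* L) (T : Subgroup L) (h : T ≠ ⊥) : T.comap (e : G →* L) ≠ ⊥ :=
  fun h1 => h (by rw [← map_comap_eq_self_of_surjective (f := (e : G →* L)) e.surjective T, h1,
    Subgroup.map_bot])

omit [Finite G] in
theorem not_cl2_comap (e : G ≃* L) (T : Subgroup L) (h : ¬ Cl2 T) : ¬ Cl2 (T.comap (e : G →* L)) :=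
  fun h1 => h (map_comap_eq_self_of_surjective (f := (e : G →* L)) e.surjective T ▸ cl2_map h1 _)

end Bas

open Bas

theorem NoSC.of_one {S : Subgroup G} (hS : IsSylowIn 2 S ⊤)
    (h : ∀ T, IsStronglyClosed T S → T ≠ ⊥ → S ≤ T) : NoSC G := fun P _ hT h1 =>
  transport hS h (MulEquiv.refl G) ne_bot_comap (isSylowIn_top P) hT h1

theorem NoSC3.of_one {S : Subgroup G} (hS : IsSylowIn 2 S ⊤)
    (h : ∀ T, IsStronglyClosed T S → ¬ Cl2 T → S ≤ T) : NoSC3 G := fun P _ hT h1 =>
  transport hS h (MulEquiv.refl G) not_cl2_comap (isSylowIn_top P) hT h1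

omit [Finite G] in
theorem NoSC.le (h : NoSC G) {S T : Subgroup G} (hS : IsSylowIn 2 S ⊤) (hT : IsStronglyClosed T S)
    (h1 : T ≠ ⊥) : S ≤ T := by
  obtain ⟨P, rfl⟩ := hS.exists_sylow_top
  exact h P T hT h1

omit [Finite G] in
theorem NoSC3.le (h : NoSC3 G) {S T : Subgroup G} (hS : IsSylowIn 2 S ⊤) (hT : IsStronglyClosed T S)
    (h1 : ¬ Cl2 T) : S ≤ T := by
  obtain ⟨P, rfl⟩ := hS.exists_sylow_top
  exact h P T hT h1

theorem NoSC.of_subgroup {H : Subgroup G} (hi : Odd H.index) (h : NoSC H) : NoSC G := by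
  obtain ⟨S, hS⟩ := exists_isSylowIn 2 H
  refine NoSC.of_one (isSylowIn_of_not_dvd (T := S) le_top hS.isPGroup fun h2 => ?_) fun T hT h1 => ?_
  · rw [relIndex_top_right, ← relIndex_mul_index hS.le] at h2
    exact (Nat.prime_two.dvd_mul.1 h2).elim hS.not_dvd_relIndex hi.not_two_dvd_nat
  · have h2 := hS.subgroupOf hS.le
    rw [subgroupOf_self] at h2
    have := h.le h2 (sc_comap hT H.subtype) fun e => h1 (by
      rw [← map_subgroupOf_eq_of_le (hT.1.trans hS.le), subgroupOf, e, Subgroup.map_bot])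
    exact fun x hx => this (show (⟨x, hS.le hx⟩ : H) ∈ S.subgroupOf H from hx)

theorem NoSC.of_equiv (h : NoSC G) (e : G ≃* L) : NoSC L := fun P _ hT h1 =>
  let ⟨S⟩ : Nonempty (Sylow 2 G) := inferInstance
  transport (isSylowIn_top S) (h S) e ne_bot_comap (isSylowIn_top P) hT h1

theorem NoSC3.of_equiv (h : NoSC3 G) (e : G ≃* L) : NoSC3 L := fun P _ hT h1 =>
  let ⟨S⟩ : Nonempty (Sylow 2 G) := inferInstance
  transport (isSylowIn_top S) (h S) e not_cl2_comap (isSylowIn_top P) hT h1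

theorem Sim.of_equiv (h : Sim G) (e : G ≃* L) : Sim L := fun P => by
  obtain ⟨S, hS⟩ := (syl_comap (isSylowIn_top P) e).exists_sylow_top
  exact FImg.isSimple S.isPGroup' (fImg_group_map (sylIn_top S) (e : G →* L) e.surjective
    (by rw [hS, map_comap_eq_self_of_surjective e.surjective])) e.injective.injOn (h S)

omit [Finite G] in
theorem Gold.section (h : Gold G) {H : Subgroup G} (π : H →* L) (hπ : Function.Surjective π) :
    Gold L := fun h1 => h (Trans.involves_trans h1 (Trans.involves_iff_exists_surjective.2 ⟨H, π, hπ⟩))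

omit [Finite G] in
theorem Gold.of_equiv (h : Gold G) (e : G ≃* L) : Gold L :=
  fun h1 => h ((Trans.involves_congr_right e).2 h1)

theorem KFact.of_equiv (h : KFact G) (e : G ≃* L) : KFact L :=
  h.imp (·.of_equiv e) (·.of_equiv e)

theorem Str.of_equiv (h : Str G) (e : G ≃* L) : Str L :=
  ⟨h.1.of_equiv e, h.2.1.of_equiv e, fun h1 => h.2.2 (h1.of_equiv e.symm)⟩

omit [Finite G] in
theorem Gold.of_central (π : G →* L) (_hπ : Function.Surjective π) (hk : π.ker ≤ center G)
    (h : Gold L) : Gold G := fun h1 => by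
  obtain ⟨K, f, hf⟩ := Trans.involves_iff_exists_surjective.1 h1
  have h2 : ∀ x : Equiv.Perm (Fin 4), (∀ y, y * x = x * y) → x = 1 := by decide
  refine h (involves_of_ker_le (π.comp K.subtype) f hf fun x hx => h2 _ fun y => ?_)
  obtain ⟨y, rfl⟩ := hf y
  rw [← map_mul, ← map_mul]
  exact congrArg f (Subtype.ext (mem_center_iff.1 (hk hx) y))

theorem Gold.of_comm {S : Subgroup G} (hS : IsSylowIn 2 S ⊤) (h : IsMulCommutative S) : Gold G := by
  obtain ⟨P, rfl⟩ := hS.exists_sylow_top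
  exact Gold.not_involves_S4_of_comm P h

omit [Finite G] in
theorem Gold.of_not_dvd (h : ¬ 24 ∣ Nat.card G) : Gold G := fun h1 => by
  obtain ⟨K, f, hf⟩ := Trans.involves_iff_exists_surjective.1 h1
  have := card_dvd_of_surjective f hf
  rw [Nat.card_perm, Nat.card_fin] at this
  exact h (this.trans (card_subgroup_dvd_card K))

theorem Bas.sc_map' {S T : Subgroup G} (hS : IsSylowIn 2 S ⊤) (hT : IsStronglyClosed T S) (π : G →* L)
    (hπ : Function.Surjective π) : IsStronglyClosed (T.map π) (S.map π) := by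
  refine ⟨map_mono hT.1, ?_⟩
  rintro _ ⟨a, ha, rfl⟩ x hx
  obtain ⟨g, rfl⟩ := hπ x
  have h1 : g * a * g⁻¹ ∈ S ⊔ π.ker := by
    rw [← comap_map_eq, mem_comap, map_mul, map_mul, map_inv]; exact hx
  have h2 : IsPGroup 2 (zpowers (g * a * g⁻¹)) := by
    rw [show zpowers (g * a * g⁻¹) = (zpowers a).map (MulAut.conj g).toMonoidHom from
      (MonoidHom.map_zpowers (MulAut.conj g).toMonoidHom a).symm]
    exact (hS.isPGroup.to_le (zpowers_le.2 (hT.1 ha))).map _
  obtain ⟨c, hc, h3⟩ := (hS.mono le_sup_left le_top).exists_conj_le h2 (zpowers_le.2 h1)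
  have h4 := hT.2 a ha (c * g) (by simpa [mul_assoc] using h3 _ (mem_zpowers _))
  obtain ⟨s, hs, n, hn, rfl⟩ := mem_sup_of_normal_right.1 hc
  refine ⟨_, hT.2 _ h4 s⁻¹ (mul_mem (mul_mem (inv_mem hs) (hT.1 h4)) (inv_mem (inv_mem hs))), ?_⟩
  simp only [map_mul, map_inv, show π n = 1 from hn, mul_one]
  group

theorem sc_map {S T H : Subgroup G} (hS : IsSylowIn 2 S ⊤) (hH : S ≤ H) (hT : IsStronglyClosed T S)
    (π : H →* L) (hπ : Function.Surjective π) :
    IsSylowIn 2 ((S.subgroupOf H).map π) ⊤ ∧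
      IsStronglyClosed ((T.subgroupOf H).map π) ((S.subgroupOf H).map π) := by
  have h1 : IsSylowIn 2 (S.subgroupOf H) ⊤ := hS.subgroupOf hH
  exact ⟨map_top_of_surjective π hπ ▸ h1.map π, sc_map' h1 (sc_comap hT H.subtype) π hπ⟩

theorem gen2_of_simple [IsSimpleGroup G] (h : 2 ∣ Nat.card G) : Gen2 G := by
  have hn : (closure {g : G | ∃ k : ℕ, g ^ 2 ^ k = 1}).Normal := by
    refine ⟨fun x hx g => ?_⟩
    induction hx using closure_induction with
    | mem x hx => exact subset_closure (hx.imp fun k hk => by rw [conj_pow, hk]; group)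
    | one => simp
    | mul x y _ _ h1 h2 => rw [← conj_mul]; exact mul_mem h1 h2
    | inv x _ h1 => rw [conj_inv.symm]; exact inv_mem h1
  refine (IsSimpleGroup.eq_bot_or_eq_top_of_normal _ hn).resolve_left fun e => ?_
  obtain ⟨x, hx⟩ := exists_prime_orderOf_dvd_card' 2 h
  have := mem_bot.1 (e.le (subset_closure ⟨1, by rw [pow_one, ← hx, pow_orderOf_eq_one]⟩))
  rw [this, orderOf_one] at hx
  exact absurd hx (by decide)

omit [Finite G] in
theorem Gen2.of_ker (π : G →* L) (hπ : Function.Surjective π) (hk : IsPGroup 2 π.ker) (h : Gen2 L) :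
    Gen2 G := by
  have h1 : π.ker ≤ closure {g : G | ∃ k : ℕ, g ^ 2 ^ k = 1} := fun x hx =>
    subset_closure ((hk ⟨x, hx⟩).imp fun k e => congrArg Subtype.val e)
  rw [Gen2, eq_top_iff, ← comap_top π, ← h, ← sup_eq_left.2 h1, ← comap_map_eq]
  refine comap_mono ((closure_le _).2 fun y ⟨k, e⟩ => ?_)
  obtain ⟨x, rfl⟩ := hπ y
  obtain ⟨l, e'⟩ := hk ⟨x ^ 2 ^ k, by rw [MonoidHom.mem_ker, map_pow, e]⟩
  exact mem_map_of_mem _ (subset_closure ⟨k + l, by
    rw [pow_add, pow_mul]; exact congrArg Subtype.val e'⟩)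

end Cfsg.Lib.KFS
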