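import Cfsg.Agent.KFS.Bas

/-!
# Criteria for simplicity of the 2-fusion system
-/

set_option autoImplicit false

namespace Cfsg.Lib.KFS

open Subgroup Cfsg Cfsg.FusionSystem Cfsg.Lib.Fus Cfsg.Lib.Fus.Grp

variable {G : Type*} [Group G] [Finite G]

namespace BasB

omit [Finite G] in
theorem good_map {G' : Type*} [Group G'] (S : Subgroup G) (f : G →* G') (hf : Function.Injective f) :
    (closure (goodSet 2 S)).map f ≤ closure (goodSet 2 (S.map f)) := by
  rw [MonoidHom.map_closure, closure_le]
  rintro _ ⟨x, hx, rfl⟩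
  refine subset_closure ?_
  rcases hx with hx | ⟨R, hRS, hSR, hC, hx, hxS⟩
  · left
    rintro _ ⟨y, hy, rfl⟩
    rw [← map_mul, ← map_mul, mem_centralizer_iff.1 hx y hy]
  · right
    refine ⟨R.map f, map_mono hRS, (map_mono hSR).trans (le_normalizer_map f), ?_, ?_,
      le_normalizer_map f (mem_map_of_mem f hxS)⟩
    · rintro _ ⟨⟨y, hy, rfl⟩, hy'⟩
      refine mem_map_of_mem f (hC ⟨hy, mem_centralizer_iff.2 fun z hz => hf ?_⟩)
      rw [map_mul, map_mul]
      exact mem_centralizer_iff.1 hy' _ (mem_map_of_mem f hz)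
    · have h2 : (pGenNormalizer 2 R).map f ≤ pGenNormalizer 2 (R.map f) := by
        unfold pGenNormalizer
        rw [MonoidHom.map_closure, closure_le]
        rintro _ ⟨y, ⟨hy, k, hk⟩, rfl⟩
        refine mem_pGenNormalizer_of_pow (le_normalizer_map f (mem_map_of_mem f hy)) (k := k) ?_
        rw [← map_pow, ← hk, pow_orderOf_eq_one, map_one]
      exact h2 (mem_map_of_mem f hx)

theorem mor_of_good (S : Sylow 2 G) {E : FusionSystem (S : Subgroup G)}
    (hE : E.IsWeaklyNormalIn (groupFusionSystem (S : Subgroup G)) 2) {g : G}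
    (hg : g ∈ closure (goodSet 2 (S : Subgroup G))) : Mor E S fun x => g * x * g⁻¹ := by
  induction hg using closure_induction with
  | mem x hx =>
    rcases hx with hx | ⟨R, hRS, hSR, hC, hx, hxS⟩
    · exact Mor.of_eqOn_id E le_rfl fun y hy => by
        rw [← mem_centralizer_iff.1 hx y hy]; group
    · have hfn : (groupFusionSystem (S : Subgroup G)).IsFullyNormalized R :=
        isFullyNormalized_of_le_normalizer hRS hSR
      have hc := isCentric_of_isFullyCentralized
        (sat_centralized S.isPGroup' (groupFusionSystem_isSaturated S) hfn) hC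
      exact mor_top_of_mor_centric S hE.1 hE.2.2.1 hxS R hRS hc (pGenNormalizer_le R hx)
        (mor_of_mem_pGenNormalizer S hE.2.2 hfn hx)
  | one => exact Mor.of_eqOn_id E le_rfl fun x _ => by simp
  | mul a b _ _ ha' hb' =>
    exact (hb'.comp ha' fun x hx => hb'.maps hx).congr fun x _ => by simp [mul_assoc]
  | inv a ha ha' =>
    have := ha'.of_leftInv (g := fun x => a⁻¹ * x * a⁻¹⁻¹) fun x _ => by group
    rwa [ha'.img_top] at this

omit [Finite G] in
theorem autB_of_mor (h : ∀ (S : Sylow 2 G) (E : FusionSystem (S : Subgroup G)),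
    E.IsWeaklyNormalIn (groupFusionSystem (S : Subgroup G)) 2 →
      ∀ g ∈ normalizer ((S : Subgroup G) : Set G), Mor E S fun x => g * x * g⁻¹) : AutB G :=
  fun S E hE => by
    rw [autGroup_group_eq le_rfl]
    intro α hα
    obtain ⟨g, -, e⟩ := mem_autInducedBy_iff.1 hα
    exact Grp.mem_autGroup_of_mor (h S E hE g (mem_normalizer_of_aut α e)) e

end BasB

open BasB

theorem sim_of (h : NoSC G) (ha : AutB G) (h2 : 2 ∣ Nat.card G) : Sim G := fun S =>
  isSimple_of_aut_le (groupFusionSystem_isSaturated S)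
    (fun e => S.not_dvd_index (by rwa [e, index_bot]))
    (fun T hT => (em (T = ⊥)).imp_right fun h1 =>
      le_antisymm hT.1 (h S T (stronglyClosed_group_iff.1 hT) h1)) (ha S)

theorem autB_of_good {S : Subgroup G} (hS : IsSylowIn 2 S ⊤)
    (h : normalizer (S : Set G) ≤ closure (goodSet 2 S)) : AutB G := autB_of_mor fun P E hE g hg => by
  obtain ⟨k, -, hk⟩ := (isSylowIn_top P).exists_map_conj_eq hS
  refine mor_of_good P hE ?_
  rw [← hk] at hg ⊢
  rw [Grp.normalizer_map_conj] at hg
  exact good_map S _ (MulAut.conj k).injective (map_mono h hg)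

theorem autB_of_fam {S : Subgroup G} (hS : IsSylowIn 2 S ⊤)
    (h : ∀ N, DC.Fam 2 (⊤ : Subgroup G) N → normalizer (S : Set G) ≤ N S) : AutB G :=
  autB_of_mor fun P E hE g hg => by
    obtain ⟨k, -, hk⟩ := (isSylowIn_top P).exists_map_conj_eq hS
    rw [← hk, Grp.normalizer_map_conj] at hg
    obtain ⟨y, hy, rfl⟩ := hg
    have h4 := (h _ (DC.fam_goodSub P hE) hy).2 k hk.le
    rwa [show DC.cjs k S = (P : Subgroup G) from hk] at h4

/-- (b) from a 2-constrained overgroup of the normaliser that is generated by its 2-elements -/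
theorem autB_of_local {S H Q : Subgroup G} (hS : IsSylowIn 2 S ⊤) (hH : normalizer (S : Set G) ≤ H)
    (hQ : Q ≤ S) (hn : H ≤ normalizer (Q : Set G)) (hc : S ⊓ centralizer (Q : Set G) ≤ Q)
    (h2 : Gen2 H) : AutB G := by
  have h1 : H ≤ pGenNormalizer 2 Q := by
    rw [← range_subtype H, MonoidHom.range_eq_map, ← h2, MonoidHom.map_closure, closure_le]
    rintro _ ⟨x, ⟨k, hk⟩, rfl⟩
    exact mem_pGenNormalizer_of_pow (hn x.2) (k := k) (congrArg Subtype.val hk)
  exact autB_of_good hS fun g hg => subset_closure (.inr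
    ⟨Q, hQ, (le_normalizer.trans hH).trans hn, hc, h1 (hH hg), hg⟩)

/-- (b) when the odd-order elements of the normaliser centralise `S` -/
theorem autB_of_cent' {S : Subgroup G} (hS : IsSylowIn 2 S ⊤)
    (h : ∀ g ∈ normalizer (S : Set G), Odd (orderOf g) → g ∈ centralizer (S : Set G)) : AutB G :=
  autB_of_good hS (normalizer_le_closure_goodSet fun g hg ho =>
    subset_closure (.inl (h g hg (Nat.coprime_two_right.1 ho))))

end Cfsg.Lib.KFS
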