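import Cfsg.Agent.KFS.Defs
import Cfsg.Agent.KInv.TwA
import Cfsg.Agent.Chev.TwistSplit
import Cfsg.Agent.Chev.AutSylow

/-!
# The torus of a twisted group is generated by the tori of rank one
-/

set_option autoImplicit false

namespace Cfsg.Lib.KFS

open Subgroup Cfsg Cfsg.Lib.Chev Cfsg.Lib.Chev.RGD

variable {ι A : Type} [Fintype ι] [DecidableEq ι] [DecidableEq A] {Γ : Type*} [Group Γ]
  {R : WeylData ι A} {Y : RGD R Γ} {S : R.Sym} (T : Y.Twist S)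

namespace C2a

theorem cF {K : Subgroup Γ} {c u : Γ} (hc : c ∈ K) (hu : u ∈ K) : c * u * c⁻¹ ∈ K :=
  mul_mem (mul_mem hc hu) (inv_mem hc)

theorem L1_le_P (j : ι) : T.L1 j ≤ Y.P (S.orb j) :=
  sup_le (inf_le_left.trans ((Y.UL_le_LJ _).trans (Y.LJ_le_P _)))
    (inf_le_left.trans ((Y.VL_le_LJ _).trans (Y.LJ_le_P _)))

theorem conj_L1 {c : Γ} (hc : c ∈ T.F) {j a : ι}
    (hU : ∀ u ∈ Y.UL (S.orb j), c * u * c⁻¹ ∈ Y.UL (S.orb a))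
    (hV : ∀ u ∈ Y.VL (S.orb j), c * u * c⁻¹ ∈ Y.VL (S.orb a)) {g : Γ} (hg : g ∈ T.L1 j) :
    c * g * c⁻¹ ∈ T.L1 a :=
  (show T.L1 j ≤ (T.L1 a).comap (MulAut.conj c).toMonoidHom from sup_le
    (fun u hu => mem_sup_left ⟨hU u hu.1, cF hc hu.2⟩)
    fun u hu => mem_sup_right ⟨hV u hu.1, cF hc hu.2⟩) hg

theorem H_conj_L1 {h : Γ} (hh : h ∈ Y.H ⊓ T.G1) {a : ι} {g : Γ} (hg : g ∈ T.L1 a) :
    h * g * h⁻¹ ∈ T.L1 a :=
  conj_L1 T (T.G1_le_F hh.2)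
    (fun _ hu => (mem_normalizer_iff.1 (Y.H_le_normalizer_spanX (fun _ k => k.2.1) hh.1) _).1 hu)
    (fun _ hu => (mem_normalizer_iff.1 (Y.H_le_normalizer_spanX (fun _ k => k.2.1) hh.1) _).1 hu) hg

theorem H0_le : (⨆ j, Y.H ⊓ T.L1 j) ≤ Y.H ⊓ T.G1 :=
  iSup_le fun j => inf_le_inf_left _ (T.L1_le_G1 j)

theorem conj_H0 {a : ι} {n : Γ} (hn : n ∈ T.L1 a) (hN : n ∈ Y.N) {h : Γ}
    (hh : h ∈ ⨆ j, Y.H ⊓ T.L1 j) : n * h * n⁻¹ ∈ ⨆ j, Y.H ⊓ T.L1 j := by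
  have h1 := H0_le T hh
  have k : n * h * n⁻¹ * h⁻¹ ∈ Y.H ⊓ T.L1 a :=
    ⟨Y.H.mul_mem ((mem_normalizer_iff.1 (Y.N_le_normalizer_H hN) _).1 h1.1) (inv_mem h1.1), by
      simpa [mul_assoc] using mul_mem hn (H_conj_L1 T h1 (inv_mem hn))⟩
  simpa using mul_mem (mem_iSup_of_mem a k) hh

theorem prod_mem {l : List Γ} (hl : ∀ n ∈ l, ∃ a, n ∈ T.L1 a ∧ Y.Lifts n (S.t a)) :
    l.prod ∈ Y.N ⊓ T.G1 := Subgroup.list_prod_mem _ fun n hn => by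
  obtain ⟨a, h1, h2⟩ := hl n hn
  exact ⟨h2.mem_N, T.L1_le_G1 a h1⟩

variable (hY : Y.Faithful)
include hY

theorem exchange {j : ι} {n : Γ} (hn : n ∈ T.L1 j) (hl : Y.Lifts n (S.t j)) (l : List Γ)
    (h : ∀ n ∈ l, ∃ a, n ∈ T.L1 a ∧ Y.Lifts n (S.t a)) {w : R.W} (hw : Y.Lifts l.prod w)
    (hp : ¬ R.Pos (w • R.simple j)) : ∃ l' : List Γ, l'.length + 1 = l.length ∧
      (∀ n ∈ l', ∃ a, n ∈ T.L1 a ∧ Y.Lifts n (S.t a)) ∧
      l.prod * n * l'.prod⁻¹ ∈ ⨆ j, Y.H ⊓ T.L1 j := by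
  induction l generalizing w with
  | nil =>
    rw [hY.lifts_unique hw (lifts_one_iff.2 (one_mem _)), one_smul] at hp
    exact absurd (R.pos_simple j) hp
  | cons m v ih =>
    obtain ⟨a, m1, m2⟩ := h m (by simp)
    have hv := fun n hn => h n (List.mem_cons_of_mem _ hn)
    have hc := prod_mem T hv
    obtain ⟨x, hx⟩ := mem_N_iff.1 hc.1
    rw [List.prod_cons] at hw ⊢
    obtain rfl := hY.lifts_unique hw (m2.mul hx)
    by_cases hq : R.Pos (x • R.simple j)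
    · have cF := T.G1_le_F hc.2
      have xf := T.mem_fix_of_lifts hY hx cF
      have p1 := WeylData.Sym.pos_orb xf hq
      have p2 := WeylData.Sym.not_pos_orb (mul_mem (S.t_mem_fix a) xf) hp
      have k : ∀ r, R.Pos r → R.InJ (S.orb j) r → R.InJ (S.orb a) (x • r) := fun r h1 h2 => by
        by_contra e
        exact R.not_pos_smul_of_inJ p2 h1 h2 (by
          rw [mul_smul]
          exact R.pos_smul_of_not_inJ (S.t_mem_WJ a) (R.pos_smul_of_inJ p1 h1 h2) e)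
      have c1 : v.prod * n * v.prod⁻¹ ∈ T.L1 a := conj_L1 T cF
        (fun _ hu => hx.conj_spanX (T := {r | R.Pos r ∧ R.InJ (S.orb a) r}) (fun _ k => k.2.1)
          (fun r hr => ⟨R.pos_smul_of_inJ p1 hr.1 hr.2, k r hr.1 hr.2⟩) hu)
        (fun _ hu => hx.conj_spanX (T := {r | ¬ R.Pos r ∧ R.InJ (S.orb a) r}) (fun _ k => k.2.1)
          (fun r hr => ⟨fun e => hr.1 ((R.pos_smul_iff_of_inJ p1 hr.2).1 e), by
            have := R.inJ_neg (k _ ((R.pos_neg_iff hr.2.1).2 hr.1) (R.inJ_neg hr.2))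
            rwa [R.smul_neg _ hr.2.1, R.neg_neg (R.smul_mem _ hr.2.1)] at this⟩) hu) hn
      have c2 := (hx.mul hl).mul hx.inv
      rcases WeylData.Sym.eq_one_or_t (mul_mem (mul_mem xf (S.t_mem_fix j)) (inv_mem xf))
        (hY.mem_WJ_of_mem_P c2.mem_cell (L1_le_P T a c1)) with e | e
      · exact absurd (by simpa using e) (S.t_ne_one j)
      · have c3 := m2.mul c2
        rw [e, S.t_mul_self, lifts_one_iff] at c3
        refine ⟨v, rfl, hv, mem_iSup_of_mem a ?_⟩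
        simpa only [mul_assoc] using mem_inf.2 ⟨c3, mul_mem m1 c1⟩
    · obtain ⟨l', h1, h2, h3⟩ := ih hv hx hq
      refine ⟨m :: l', by simp [h1], List.forall_mem_cons.2 ⟨⟨a, m1, m2⟩, h2⟩, ?_⟩
      simpa [mul_assoc] using conj_H0 T m1 m2.mem_N h3

theorem prod_mem_H0 (l : List Γ) (h : ∀ n ∈ l, ∃ a, n ∈ T.L1 a ∧ Y.Lifts n (S.t a))
    (hH : l.prod ∈ Y.H) : l.prod ∈ ⨆ j, Y.H ⊓ T.L1 j := by
  induction' hk : l.length using Nat.strong_induction_on with k ih generalizing l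
  rcases l.eq_nil_or_concat with rfl | ⟨v, n, rfl⟩
  · exact one_mem _
  rw [List.concat_eq_append] at h hH hk ⊢
  obtain ⟨j, n1, n2⟩ := h n (by simp)
  have hv := fun n hn => h n (List.mem_append_left _ hn)
  obtain ⟨x, hx⟩ := mem_N_iff.1 (prod_mem T hv).1
  rw [List.prod_append, List.prod_singleton] at hH ⊢
  have e : x = S.t j := by
    rw [eq_inv_of_mul_eq_one_left (hY.lifts_unique (hx.mul n2) (lifts_one_iff.2 hH)), S.t_inv]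
  obtain ⟨l', h1, h2, h3⟩ := exchange T hY n1 n2 v hv hx
    (e ▸ S.not_pos_t_simple (S.self_mem_orb j))
  have := ih l'.length (by simp at hk; omega) l' h2
    (inv_mem_iff.1 ((mul_mem_cancel_left hH).1 (H0_le T h3).1)) rfl
  simpa using mul_mem h3 this

theorem conj_UL {w : R.W} {m : Γ} (hm : Y.Lifts m w) (hF : m ∈ T.F) {j : ι}
    (hp : R.Pos (w • R.simple j)) {b : Γ} (hb : b ∈ Y.UL (S.orb j) ⊓ T.F) :
    m * b * m⁻¹ ∈ Y.U ⊓ T.F :=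
  ⟨hm.conj_spanX (fun _ k => k.2.1) (fun _ hr => R.pos_smul_of_inJ
    (WeylData.Sym.pos_orb (T.mem_fix_of_lifts hY hm hF) hp) hr.1 hr.2) hb.1,
    cF hF hb.2⟩

theorem step {j : ι} {n : Γ} (hn : n ∈ T.L1 j) (hl : Y.Lifts n (S.t j)) {m : Γ}
    (hm : m ∈ closure {n | ∃ a, n ∈ T.L1 a ∧ Y.Lifts n (S.t a)}) {u : Γ} (hu : u ∈ Y.U ⊓ T.F) :
    ∃ a ∈ Y.U ⊓ T.F, ∃ m' ∈ closure {n | ∃ a, n ∈ T.L1 a ∧ Y.Lifts n (S.t a)},
      ∃ b ∈ Y.U ⊓ T.F, m * u * n = a * m' * b := by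
  have hN : closure {n | ∃ a, n ∈ T.L1 a ∧ Y.Lifts n (S.t a)} ≤ Y.N ⊓ T.G1 :=
    (closure_le _).2 fun n ⟨a, h1, h2⟩ => ⟨h2.mem_N, T.L1_le_G1 a h1⟩
  have n0 : n ∈ closure {n | ∃ a, n ∈ T.L1 a ∧ Y.Lifts n (S.t a)} := subset_closure ⟨j, hn, hl⟩
  have nF := T.G1_le_F (T.L1_le_G1 j hn)
  have mF := T.G1_le_F (hN hm).2
  obtain ⟨w, hw⟩ := mem_N_iff.1 (hN hm).1
  obtain ⟨a, ha, b, hb, e⟩ := T.exists_UJ_mul_UL hY (S.stable_orb j) (inv_mem hu)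
  obtain rfl : u = b⁻¹ * a⁻¹ := by rw [← mul_inv_rev, ← e, inv_inv]
  have a' := T.conj_mem_UJ_inf' (J := S.orb j) ⟨L1_le_P T j hn, nF⟩ (inv_mem ha)
  replace a' : n⁻¹ * a⁻¹ * n ∈ Y.U ⊓ T.F := ⟨Y.UJ_le_U _ a'.1, a'.2⟩
  by_cases hp : R.Pos (w • R.simple j)
  · exact ⟨_, conj_UL T hY hw mF hp (inv_mem hb), _, mul_mem hm n0, _, a', by group⟩
  by_cases b1 : b = 1
  · exact ⟨1, one_mem _, _, mul_mem hm n0, _, a', by rw [b1]; group⟩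
  have hv : n * b⁻¹ * n⁻¹ ∈ Y.VL (S.orb j) ⊓ T.F :=
    ⟨Lifts.conj_UL hl (inv_mem hb).1, cF nF (inv_mem hb).2⟩
  obtain ⟨u1, h1, m1, -, h2, u2, h3, e'⟩ := T.rank_one hY hv (by simpa using b1)
  have m1L : m1 ∈ T.L1 j := by
    rw [show m1 = u1⁻¹ * (n * b⁻¹ * n⁻¹) * u2⁻¹ by rw [e']; group]
    exact mul_mem (mul_mem (mem_sup_left (inv_mem h1)) (mem_sup_right hv))
      (mem_sup_left (inv_mem h3))
  have hw' := hw.mul hl.inv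
  rw [S.t_inv] at hw'
  have nn := hl.mul hl
  rw [S.t_mul_self, lifts_one_iff] at nn
  refine ⟨_, conj_UL T hY hw' (mul_mem mF (inv_mem nF))
    ((WeylData.Sym.pos_mul_t_iff (T.mem_fix_of_lifts hY hw mF) j).2 hp) h1,
    m * n⁻¹ * m1 * (n * n), mul_mem (mul_mem (mul_mem hm (inv_mem n0))
      (subset_closure ⟨j, m1L, h2⟩)) (mul_mem n0 n0), (n * n)⁻¹ * u2 * (n * n)⁻¹⁻¹ * _,
    mul_mem ⟨(mem_normalizer_iff.1 (Y.H_le_normalizer_U (inv_mem nn)) _).1 (Y.UL_le_U _ h3.1),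
      cF (inv_mem (mul_mem nF nF)) h3.2⟩ a', ?_⟩
  calc _ = m * n⁻¹ * (n * b⁻¹ * n⁻¹) * (n * n) * (n⁻¹ * a⁻¹ * n) := by group
    _ = _ := by rw [e']; group

end C2a

variable (hY : Y.Faithful)
include hY

theorem H_le_iSup : Y.H ⊓ T.G1 ≤ ⨆ j, Y.H ⊓ T.L1 j := fun h hh => by
  let N0 := closure {n | ∃ a, n ∈ T.L1 a ∧ Y.Lifts n (S.t a)}
  let Ω : Γ → Prop := fun g => ∃ a ∈ Y.U ⊓ T.F, ∃ m ∈ N0, ∃ b ∈ Y.U ⊓ T.F, g = a * m * b
  let K : Subgroup Γ :=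
    { carrier := {g | ∀ x, Ω x → Ω (x * g) ∧ Ω (x * g⁻¹)}
      one_mem' := fun x hx => by simpa using hx
      mul_mem' := fun {a b} ha hb x hx => by
        rw [mul_inv_rev, ← mul_assoc, ← mul_assoc]
        exact ⟨(hb _ (ha x hx).1).1, (ha _ (hb x hx).2).2⟩
      inv_mem' := fun {a} ha x hx => by
        rw [inv_inv]; exact (ha x hx).symm }
  have hU : Y.U ⊓ T.F ≤ K := by
    rintro u hu _ ⟨a, ha, m, hm, b, hb, rfl⟩
    exact ⟨⟨a, ha, m, hm, _, mul_mem hb hu, mul_assoc _ _ _⟩,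
      a, ha, m, hm, _, mul_mem hb (inv_mem hu), mul_assoc _ _ _⟩
  have st : ∀ j, ∀ n ∈ T.L1 j, Y.Lifts n (S.t j) → ∀ x, Ω x → Ω (x * n) := by
    rintro j n hn hl _ ⟨a, ha, m, hm, b, hb, rfl⟩
    obtain ⟨a', ha', m', hm', b', hb', e⟩ := C2a.step T hY hn hl hm hb
    exact ⟨_, mul_mem ha ha', m', hm', b', hb', by
      rw [mul_assoc a a', mul_assoc a, mul_assoc a, mul_assoc a, e]⟩
  have hK : T.G1 ≤ K := iSup_le fun j => by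
    obtain ⟨n, hn, hl⟩ := T.exists_lifts_L1 hY j
    exact T.L1_le_of_lifts (T.G1_le_F (T.L1_le_G1 j hn)) hl (le_normalizer fun x hx =>
      ⟨st j n hn hl x hx, st j _ (inv_mem hn) (S.t_inv j ▸ hl.inv) x hx⟩)
      ((inf_le_inf_right _ (Y.UL_le_U _)).trans hU)
  obtain ⟨a, ha, m, hm, b, hb, e⟩ :=
    (hK hh.2 1 ⟨1, one_mem _, 1, one_mem _, 1, one_mem _, by simp⟩).1
  rw [one_mul] at e
  replace hm : m ∈ N0.toSubmonoid := hm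
  rw [closure_toSubmonoid] at hm
  obtain ⟨l, h1, rfl⟩ := Submonoid.exists_list_of_mem_closure hm
  have h2 : ∀ n ∈ l, ∃ a, n ∈ T.L1 a ∧ Y.Lifts n (S.t a) := fun n hn => (h1 n hn).elim id
    fun ⟨a, k1, k2⟩ => ⟨a, inv_mem_iff.1 k1, by simpa using k2.inv⟩
  have mH : l.prod ∈ Y.H := hY.B_inf_N ▸ ⟨by
    rw [show l.prod = a⁻¹ * h * b⁻¹ by rw [e]; group]
    exact Y.B.mul_mem (mul_mem (inv_mem (Y.U_le_B ha.1)) (Y.H_le_B hh.1))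
      (inv_mem (Y.U_le_B hb.1)),
    (C2a.prod_mem T h2).1⟩
  have := hY.eq_one_of_mem_U_of_mem_H (g := h * l.prod⁻¹) (by
    rw [e, mul_assoc a, mul_assoc a]
    exact mul_mem ha.1 ((mem_normalizer_iff.1 (Y.H_le_normalizer_U mH) _).1 hb.1))
    (mul_mem hh.1 (inv_mem mH))
  rw [mul_inv_eq_one.1 this]
  exact C2a.prod_mem_H0 T hY l h2 mH

end Cfsg.Lib.KFS
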