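import Cfsg.Agent.KFS.Defs
import Cfsg.Agent.KInv.TwA
import Cfsg.Agent.Chev.OverU
import Cfsg.Agent.Fus.SimpleGrp
import Cfsg.Agent.Solv.TurMod

/-!
# Groups of Lie type in characteristic two: simple data and the rank one case
-/

set_option autoImplicit false

namespace Cfsg.Lib.KFS.C2d

open Subgroup Cfsg Cfsg.Lib.Fus Cfsg.Lib.Fus.Grp Cfsg.Lib.Chev Cfsg.Lib.Chev.RGD

theorem hH_of {Γ : Type*} [Group Γ] {H : Subgroup Γ}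
    (hH : ∀ h ∈ H, (∃ k, orderOf h = 2 ^ k) → h = 1) : ∀ h ∈ H, ∀ k : ℕ, h ^ 2 ^ k = 1 → h = 1 :=
  fun h hh _ hk => hH h hh
    ((Nat.dvd_prime_pow Nat.prime_two).1 (orderOf_dvd_of_pow_eq_one hk) |>.imp fun _ h => h.2)

theorem pow_of {Γ : Type*} [Group Γ] {U : Subgroup Γ} (hU : IsPGroup 2 U) {x : Γ} (hx : x ∈ U) :
    ∃ k : ℕ, x ^ 2 ^ k = 1 := (hU ⟨x, hx⟩).imp fun _ h => congrArg Subtype.val h

theorem mem_norm {Γ : Type*} [Group Γ] {K X : Subgroup Γ} {g : K}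
    (h : (g : Γ) ∈ normalizer (X : Set Γ)) : g ∈ normalizer ((X.subgroupOf K : Subgroup K) : Set K) :=
  le_normalizer_comap K.subtype h

variable {ι A : Type} [Fintype ι] [DecidableEq ι] [DecidableEq A] {Γ : Type*} [Group Γ]
  {R : WeylData ι A} {Y : RGD R Γ} {S : R.Sym} (T : Y.Twist S) (hY : Y.Faithful)

theorem L1_le (hU : IsPGroup 2 Y.U) (j : ι) : T.L1 j ≤
    (pGenNormalizer 2 ((Y.UJ (S.orb j)).subgroupOf T.G1)).map T.G1.subtype := by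
  have : Fact (Nat.Prime 2) := ⟨Nat.prime_two⟩
  refine sup_le (fun x hx => ?_) (fun x hx => ?_)
  · obtain ⟨k, hk⟩ := pow_of hU (Y.UL_le_U _ hx.1)
    exact ⟨⟨x, T.UL_inf_le_G1 j hx⟩, mem_pGenNormalizer_of_pow (k := k)
      (mem_norm (Y.P_le_normalizer_UJ _ (Y.LJ_le_P _ (Y.UL_le_LJ _ hx.1)))) (Subtype.ext hk), rfl⟩
  · obtain ⟨m, hm⟩ := Y.exists_lifts (R.w0 (S.orb j))
    obtain ⟨k, hk⟩ := pow_of hU (Y.UL_le_U _ (hm.conj_VL hx.1))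
    rw [conj_pow, conj_eq_one_iff] at hk
    exact ⟨⟨x, T.VL_inf_le_G1 j hx⟩, mem_pGenNormalizer_of_pow (k := k)
      (mem_norm (Y.P_le_normalizer_UJ _ (Y.LJ_le_P _ (Y.VL_le_LJ _ hx.1)))) (Subtype.ext hk), rfl⟩

include hY

theorem sylow (hU : IsPGroup 2 Y.U) (hH : ∀ h ∈ Y.H, (∃ k, orderOf h = 2 ^ k) → h = 1) [Finite Γ] :
    IsSylowIn 2 (Y.U.subgroupOf T.G1) ⊤ := by
  have : Fact (Nat.Prime 2) := ⟨Nat.prime_two⟩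
  obtain ⟨P, hP⟩ := T.exists_sylow hY rfl hU.comap_subtype (hH_of hH)
  exact hP ▸ isSylowIn_top P

theorem aut (hU : IsPGroup 2 Y.U) (ha : Y.H ⊓ T.G1 ≤ ⨆ j, Y.H ⊓ T.L1 j)
    (hc : ∀ j, (Y.U ⊓ T.F) ⊓ centralizer ((Y.UJ (S.orb j) ⊓ T.F : Subgroup Γ) : Set Γ) ≤
      Y.UJ (S.orb j) ⊓ T.F) :
    normalizer ((Y.U.subgroupOf T.G1 : Subgroup T.G1) : Set T.G1) ≤
      closure (goodSet 2 (Y.U.subgroupOf T.G1)) := by
  have : Fact (Nat.Prime 2) := ⟨Nat.prime_two⟩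
  intro g hg
  have hB : (g : Γ) ∈ Y.B := T.mem_B_of_conj hY (T.G1_le_F g.2) fun u hu =>
    Y.U_le_B ((mem_normalizer_iff.1 hg ⟨u, T.U_inf_le_G1 hY hu⟩).1 hu.1)
  obtain ⟨u, hu, h, hh, e⟩ := (T.mem_B_inf_iff hY).1 ⟨hB, g.2⟩
  have h1 : (⨆ j, Y.H ⊓ T.L1 j) ≤ (closure (goodSet 2 (Y.U.subgroupOf T.G1))).map T.G1.subtype := by
    refine iSup_le fun j x hx => ?_
    obtain ⟨y, hy, rfl⟩ := L1_le T hU j hx.2
    refine mem_map_of_mem _ (subset_closure (Or.inr ⟨(Y.UJ (S.orb j)).subgroupOf T.G1,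
      fun a ha => Y.UJ_le_U _ ha, fun a ha => mem_norm (Y.P_le_normalizer_UJ _
        (Y.B_le_P _ (Y.U_le_B ha))), fun a ha => ?_, hy, mem_norm (Y.H_le_normalizer_U hx.1)⟩))
    refine (hc j ⟨⟨ha.1, T.G1_le_F a.2⟩, fun b hb => ?_⟩).1
    exact congrArg Subtype.val (ha.2 ⟨b, T.U_inf_le_G1 hY ⟨Y.UJ_le_U _ hb.1, hb.2⟩⟩ hb.1)
  obtain ⟨y, hy, rfl⟩ := h1 (ha hh)
  have : g = ⟨u, T.U_inf_le_G1 hY hu⟩ * y := Subtype.ext e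
  rw [this]
  exact mul_mem (le_closure_goodSet hU.comap_subtype hu.1) hy

theorem simpleData (hU : IsPGroup 2 Y.U) (hH : ∀ h ∈ Y.H, (∃ k, orderOf h = 2 ^ k) → h = 1)
    [Finite Γ] (i : ι) (hp : T.G1 ≤ ⁅T.G1, T.G1⁆)
    (hfoc : ∀ T₀ : Subgroup Γ, T₀ ≠ ⊥ → T₀ ≤ Y.U ⊓ T.F →
      (∀ x ∈ T₀, ∀ g ∈ T.G1, g * x * g⁻¹ ∈ Y.U → g * x * g⁻¹ ∈ T₀) →
      (Y.U ⊓ T.F) ⊓ ⁅T.G1, T.G1⁆ ≤ T₀ ⊔ ⁅Y.U ⊓ T.F, Y.U ⊓ T.F⁆)
    (ha : Y.H ⊓ T.G1 ≤ ⨆ j, Y.H ⊓ T.L1 j)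
    (hc : ∀ j, (Y.U ⊓ T.F) ⊓ centralizer ((Y.UJ (S.orb j) ⊓ T.F : Subgroup Γ) : Set Γ) ≤
      Y.UJ (S.orb j) ⊓ T.F) : SimpleData 2 (Y.U.subgroupOf T.G1) := by
  have : Fact (Nat.Prime 2) := ⟨Nat.prime_two⟩
  refine ⟨sylow T hY hU hH, fun e => ?_, fun X hX h0 hsc => ?_, aut T hY hU ha hc⟩
  · obtain ⟨u, hu, h1⟩ := T.exists_ne_one_UL hY i
    have : (⟨u, T.UL_inf_le_G1 i hu⟩ : T.G1) ∈ Y.U.subgroupOf T.G1 := Y.UL_le_U _ hu.1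
    rw [e] at this
    exact h1 (congrArg Subtype.val (mem_bot.1 this))
  · have h1 : X.map T.G1.subtype ≤ Y.U ⊓ T.F := by
      rintro _ ⟨x, hx, rfl⟩
      exact ⟨hX hx, T.G1_le_F x.2⟩
    have h2 := hfoc _ (fun e => h0 ((map_eq_bot_iff_of_injective X (subtype_injective _)).1 e)) h1
      (by
        rintro _ ⟨x, hx, rfl⟩ g hg hU'
        exact ⟨_, hsc x hx ⟨g, hg⟩ hU', rfl⟩)
    have h3 := Solv.Tur.le_of_le_sup_der (hU.to_le (inf_le_left (b := T.F))) h1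
      ((le_inf le_rfl ((T.U_inf_le_G1 hY).trans hp)).trans h2)
    intro x hx
    obtain ⟨y, hy, e⟩ := h3 ⟨hx, T.G1_le_F x.2⟩
    exact (Subtype.ext e : y = x) ▸ hy

theorem four_dvd (hU : IsPGroup 2 Y.U) [Finite Γ] {i j : ι} (hij : i ∉ S.orb j) :
    4 ∣ Nat.card T.G1 := by
  have : Fact (Nat.Prime 2) := ⟨Nat.prime_two⟩
  obtain ⟨a, ha, a1⟩ := T.exists_ne_one_UL hY i
  obtain ⟨b, hb, b1⟩ := T.exists_ne_one_UL hY j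
  have h1 : a ∈ Y.UJ (S.orb j) := UL_le_UJ (fun k hk hk' => hij (by
    rw [← S.orb_eq_of_mem hk', S.orb_eq_of_mem hk]
    exact S.self_mem_orb i)) ha.1
  have h2 : b ∉ Y.UJ (S.orb j) := fun h => b1 (by
    have : b ∈ Y.UJ (S.orb j) ⊓ Y.LJ (S.orb j) := ⟨h, Y.UL_le_LJ _ hb.1⟩
    rwa [hY.UJ_inf_LJ, mem_bot] at this)
  have h3 : (⊥ : Subgroup Γ) < Y.UJ (S.orb j) ⊓ T.F := bot_lt_iff_ne_bot.2 fun e => a1 (by
    have : a ∈ Y.UJ (S.orb j) ⊓ T.F := ⟨h1, ha.2⟩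
    rwa [e, mem_bot] at this)
  have h4 : Y.UJ (S.orb j) ⊓ T.F < Y.U ⊓ T.F :=
    lt_of_le_of_ne (inf_le_inf_right _ (Y.UJ_le_U _)) fun e => h2 (by
      have : b ∈ Y.U ⊓ T.F := ⟨Y.UL_le_U _ hb.1, hb.2⟩
      rw [← e] at this
      exact this.1)
  have h5 := Trans.card_lt_of_lt h3
  have h6 := Trans.card_lt_of_lt h4
  obtain ⟨k, hk⟩ := IsPGroup.iff_card.1 (hU.to_le (inf_le_left (b := T.F)))
  rw [card_bot] at h5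
  have h7 : 2 ≤ k := by
    by_contra h
    have : 2 ^ k ≤ 2 ^ 1 := Nat.pow_le_pow_right two_pos (by omega)
    omega
  exact ((pow_dvd_pow 2 h7).trans (hk ▸ dvd_rfl)).trans (card_dvd_of_le (T.U_inf_le_G1 hY))

theorem se (hU : IsPGroup 2 Y.U) (hH : ∀ h ∈ Y.H, (∃ k, orderOf h = 2 ^ k) → h = 1) [Finite Γ]
    (i : ι) (h1 : ∀ j, j ∈ S.orb i) : IsStronglyEmbedded (Y.B.subgroupOf T.G1) := by
  have : Fact (Nat.Prime 2) := ⟨Nat.prime_two⟩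
  have ho : S.orb i = Set.univ := Set.eq_univ_of_forall h1
  refine ⟨fun e => ?_, ?_, fun g hg => ?_⟩
  · obtain ⟨v, hv, v1, hσ⟩ := T.ne_bot i
    have hG : v ∈ T.G1 := T.VL_inf_le_G1 i ⟨hv, Y.VL_le_G0 _ hv, hσ⟩
    exact v1 (hY.eq_one_of_mem_V_of_mem_B (Y.VL_le_V _ hv) (subgroupOf_eq_top.1 e hG))
  · obtain ⟨u, hu, u1⟩ := T.exists_ne_one_UL hY i
    obtain ⟨k, hk⟩ := pow_of hU (Y.UL_le_U _ hu.1)
    have h2 : (⟨u, T.UL_inf_le_G1 i hu⟩ : T.G1) ∈ Y.B.subgroupOf T.G1 :=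
      Y.U_le_B (Y.UL_le_U _ hu.1)
    by_contra hev
    rw [Nat.not_even_iff_odd] at hev
    have h3 := orderOf_dvd_natCard _ h2
    rw [← orderOf_coe] at h3
    exact u1 (orderOf_eq_one_iff.1 (Nat.eq_one_of_dvd_coprimes
      ((Nat.coprime_two_left.2 hev).pow_left k) (orderOf_dvd_of_pow_eq_one hk) h3))
  · obtain ⟨w, hw, u, hu, m, hm, hl, u', hu', e⟩ := T.exists_normal_form hY g.2
    have hu2 := Y.Uneg_le_U _ hu'.1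
    rcases WeylData.Sym.eq_one_or_t hw (i := i) (by rw [ho, R.WJ_univ]; exact mem_top _)
      with rfl | rfl
    · refine absurd (?_ : (g : Γ) ∈ Y.B) hg
      rw [e]
      exact mul_mem (mul_mem (Y.U_le_B hu.1) (Y.H_le_B (lifts_one_iff.1 hl))) (Y.U_le_B hu2)
    rw [S.t_def, ho] at hl
    by_contra hev
    rw [Nat.not_odd_iff_even] at hev
    obtain ⟨⟨x, hx, y, hy, rfl⟩, ho2⟩ := exists_prime_orderOf_dvd_card' 2 hev.two_dvd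
    rw [← orderOf_coe, ← orderOf_coe] at ho2
    change orderOf ((g : Γ) * y * (g : Γ)⁻¹) = 2 at ho2
    have p2 : ((g : Γ) * y * (g : Γ)⁻¹) ^ 2 ^ 1 = 1 := by
      rw [pow_one, ← ho2, pow_orderOf_eq_one]
    have h2 : (g : Γ) * y * (g : Γ)⁻¹ ∈ Y.U := hY.mem_U_of_pow (hH_of hH) hx p2
    have h3 : (y : Γ) ∈ Y.U := hY.mem_U_of_pow (hH_of hH) hy (k := 1) (by
      rwa [conj_pow, conj_eq_one_iff] at p2)
    have h4 : m * (u' * y * u'⁻¹) * m⁻¹ ∈ Y.U := by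
      have := Y.U.mul_mem (Y.U.mul_mem (Y.U.inv_mem hu.1) h2) hu.1
      rwa [e, show u⁻¹ * (u * m * u' * y * (u * m * u')⁻¹) * u = m * (u' * y * u'⁻¹) * m⁻¹ by group]
        at this
    have h5 := hY.eq_one_of_mem_U_of_mem_V h4
      (hl.conj_U_w0.2 (mul_mem (mul_mem hu2 h3) (inv_mem hu2)))
    rw [conj_eq_one_iff, conj_eq_one_iff] at h5
    rw [h5, mul_one, mul_inv_cancel, orderOf_one] at ho2
    omega

end Cfsg.Lib.KFS.C2d
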