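import Cfsg.Agent.DC.FusFam
import Cfsg.Prelude.Def_TwoFusion
import Cfsg.Prelude.Def_LocalEven
import Cfsg.Prelude.Def_Classification2

/-!
# The 2-fusion systems of the known simple groups: the properties
-/

set_option autoImplicit false

namespace Cfsg.Lib.KFS

open Subgroup Cfsg Cfsg.FusionSystem

/-- Nilpotence class at most two. -/
def Cl2 {G : Type*} [Group G] (T : Subgroup G) : Prop := ⁅⁅T, T⁆, T⁆ = ⊥

theorem Cl2_eq_1 : type_of% @Cl2.eq_1 := @Cl2.eq_1

/-- A chain of subgroups strongly closed in `S` with abelian factors. -/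
def Chain {G : Type*} [Group G] (S : Subgroup G) : Prop :=
  ∃ (n : ℕ) (T : ℕ → Subgroup G), T 0 = ⊥ ∧ T n = S ∧ Monotone T ∧
    (∀ i, IsStronglyClosed (T i) S) ∧ ∀ i, ⁅T (i + 1), T (i + 1)⁆ ≤ T i

theorem Chain_eq_1 : type_of% @Chain.eq_1 := @Chain.eq_1

variable (G : Type*) [Group G]

/-- No proper non-trivial strongly closed subgroup in a Sylow 2-subgroup. -/
def NoSC : Prop :=
  ∀ (S : Sylow 2 G) (T : Subgroup G), IsStronglyClosed T S → T ≠ ⊥ → (S : Subgroup G) ≤ T

theorem NoSC_eq_1 : type_of% @NoSC.eq_1 := @NoSC.eq_1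

/-- No proper strongly closed subgroup of class at least three in a Sylow 2-subgroup. -/
def NoSC3 : Prop :=
  ∀ (S : Sylow 2 G) (T : Subgroup G), IsStronglyClosed T S → ¬ Cl2 T → (S : Subgroup G) ≤ T

theorem NoSC3_eq_1 : type_of% @NoSC3.eq_1 := @NoSC3.eq_1

/-- No section is the symmetric group of degree four. -/
def Gold : Prop := ¬ Involves (Equiv.Perm (Fin 4)) G

theorem Gold_eq_1 : type_of% @Gold.eq_1 := @Gold.eq_1

/-- The 2-fusion system is simple. -/
def Sim : Prop := ∀ S : Sylow 2 G, (groupFusionSystem (S : Subgroup G)).IsSimple 2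

theorem Sim_eq_1 : type_of% @Sim.eq_1 := @Sim.eq_1

/-- The automizer of the Sylow subgroup lies in every weakly normal subsystem over it. -/
def AutB : Prop :=
  ∀ (S : Sylow 2 G) (E : FusionSystem (S : Subgroup G)),
    E.IsWeaklyNormalIn (groupFusionSystem (S : Subgroup G)) 2 →
      (groupFusionSystem (S : Subgroup G)).autGroup S ≤ E.autGroup S

theorem AutB_eq_1 : type_of% @AutB.eq_1 := @AutB.eq_1

/-- The fact wanted for every known simple group. -/
def KFact : Prop := Gold G ∨ Sim G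

theorem KFact_eq_1 : type_of% @KFact.eq_1 := @KFact.eq_1

/-- The strong form of the fact, used inductively. -/
def Str : Prop := NoSC G ∧ Sim G ∧ ¬ Gold G

theorem Str_eq_1 : type_of% @Str.eq_1 := @Str.eq_1

/-- The group is generated by its 2-elements. -/
def Gen2 : Prop := closure {g : G | ∃ k : ℕ, g ^ 2 ^ k = 1} = ⊤

theorem Gen2_eq_1 : type_of% @Gen2.eq_1 := @Gen2.eq_1

end Cfsg.Lib.KFS
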