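import Cfsg.Agent.KFS.Defs
import Cfsg.Agent.Fus.Comp
import Cfsg.Agent.Fus.GroupNormal
import Cfsg.Agent.Trans.GenFitting
import Cfsg.Agent.Local.SylowJoin

/-!
# A component of the fusion system of a group lies in a component or centralises `S ∩ F*(G)`
-/

set_option autoImplicit false

namespace Cfsg.Lib.KFS

open Subgroup Cfsg Cfsg.FusionSystem Cfsg.Lib.Fus Cfsg.Lib.Fus.Grp

variable {G : Type*} [Group G] [Finite G]

namespace GenA

/-- A quasisimple system is not over an abelian group. -/
theorem not_comm {p : ℕ} [Fact p.Prime] {T : Subgroup G} {C : FusionSystem T} (hT : IsPGroup p T)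
    (hq : C.Quasisimple p) : ¬ T ≤ centralizer (T : Set G) := fun h =>
  Quasisimple.not_constrained hT hq (isConstrained_of_isNormal hq.1
    (isNormal_of_stronglyClosed_of_comm hT hq.1 (stronglyClosed_top C) fun x hx _ hy => h hy x hx)
    centralizerIn_le)

theorem isNormal_group {S Q : Subgroup G} [hQ : Q.Normal] (h : Q ≤ S) :
    (groupFusionSystem S).IsNormal Q := isNormal_iff.2 ⟨h, fun P f hf => by
  obtain ⟨hP, hm, s, e⟩ := mor_group.1 hf
  have h1 : P ⊔ Q ≤ S.comap (MulAut.conj s).toMonoidHom :=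
    sup_le (fun x hx => show s * x * s⁻¹ ∈ S from e x hx ▸ hm x hx) fun x hx => h (hQ.conj_mem x hx s)
  have h2 : Mor (groupFusionSystem S) (P ⊔ Q) fun x => s * x * s⁻¹ :=
    mor_group.2 ⟨sup_le hP h, fun x hx => h1 hx, s, fun _ _ => rfl⟩
  exact ⟨_, h2, fun x hx => (e x hx).symm,
    (h2.restrict le_sup_right).img_eq_of_maps fun x hx => hQ.conj_mem x hx s⟩⟩

theorem inf_sup {p : ℕ} [Fact p.Prime] (S : Sylow p G) {A B : Subgroup G} (hA : A.IsSubnormal)
    (hB : B.IsSubnormal) : (S : Subgroup G) ⊓ (A ⊔ B) = (S : Subgroup G) ⊓ A ⊔ (S : Subgroup G) ⊓ B :=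
  Local.MSS.sylow_inf_sup (H := ⊤) ⟨le_top, S.isPGroup', (isSylowIn_top S).not_dvd_relIndex⟩
    (Solv.SubnormalIn.top_iff.2 hA) (Solv.SubnormalIn.top_iff.2 hB)

theorem inf_sSup_le {p : ℕ} [Fact p.Prime] (S : Sylow p G) {X : Subgroup G} (s : Set (Subgroup G))
    (h : ∀ K ∈ s, K.IsSubnormal ∧ (S : Subgroup G) ⊓ K ≤ X) : (S : Subgroup G) ⊓ sSup s ≤ X := by
  induction s, Set.toFinite s using Set.Finite.induction_on with
  | empty => simp
  | insert _ _ ih =>
    rw [sSup_insert, inf_sup S (h _ (Set.mem_insert _ _)).1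
      (Solv.isSubnormal_sSup fun U hU => (h U (Set.mem_insert_of_mem _ hU)).1)]
    exact sup_le (h _ (Set.mem_insert _ _)).2 (ih fun U hU => h U (Set.mem_insert_of_mem _ hU))

theorem normal_aux {p : ℕ} [Fact p.Prime] {H K P V : Subgroup G} (hP : IsSylowIn p P H) (hK : K ≤ H)
    (hn : H ≤ normalizer (K : Set G)) (e : V = P ⊓ K) (hV : V ≤ K) :
    (fusionSystemOfSubgroup K V hV).IsNormalIn (fusionSystemOfSubgroup H P hP.le) p := by
  subst e
  exact isNormalIn_of_normal hP hK hn

end GenA

open GenA in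
theorem comp_cases (hO : oddCore G = ⊥) (S : Sylow 2 G) {T : Subgroup G} {C : FusionSystem T}
    (hC : C.IsComponentIn (groupFusionSystem (S : Subgroup G)) 2) :
    (∃ K : Subgroup G, IsComponent K ∧
      C.IsComponentIn (fusionSystemOfSubgroup K ((S : Subgroup G) ⊓ K) inf_le_right) 2) ∨
    CentE (groupFusionSystem (S : Subgroup G)) C ((S : Subgroup G) ⊓ generalizedFittingSubgroup G) := by
  refine (IsComponentIn.component_or_centE S.isPGroup' hC
    (isNormalIn_group_of_normal S (generalizedFittingSubgroup G))).imp_left fun hE => ?_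
  have hP : IsSylowIn 2 ((S : Subgroup G) ⊓ generalizedFittingSubgroup G)
      (generalizedFittingSubgroup G) :=
    (isSylowIn_top S).inf_of_normal le_top fun g _ x hx => Normal.conj_mem inferInstance x hx g
  by_contra hn
  have hT := IsComponentIn.le hE
  refine not_comm (hP.isPGroup.to_le hT) hC.2 (le_centralizer_iff.1 (hT.trans ?_))
  have hO2 : pCore 2 G ≤ S := (isSylowIn_top S).le_of_normal (Solv.pCore_isPGroup 2 G) le_top
    fun g _ x hx => Normal.conj_mem inferInstance x hx g
  rw [Trans.genFitting_eq_layer_sup_pCore hO, inf_sup S (Normal.isSubnormal inferInstance)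
    (Normal.isSubnormal inferInstance)]
  refine sup_le (inf_sSup_le S _ fun K hK => ⟨hK.1, ?_⟩) (inf_le_right.trans ?_)
  · have h1 := Trans.IsComponent.le_genFitting hK
    rcases IsComponentIn.component_or_centE hP.isPGroup hE (normal_aux hP h1
      (Trans.IsComponent.genFitting_le_normalizer hK) (V := (S : Subgroup G) ⊓ K)
      (by rw [inf_assoc, inf_eq_right.2 h1]) inf_le_right) with h | h
    · exact absurd ⟨K, hK, h⟩ hn
    · exact h.1.trans inf_le_right
  · exact (IsComponentIn.centE_of_isNormal S.isPGroup' hC (groupFusionSystem_isSaturated S)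
      (isNormal_group hO2)).1.trans inf_le_right

end Cfsg.Lib.KFS
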