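import Cfsg.Agent.KFS.Bas
import Cfsg.Agent.Fus.SLFusion
import Cfsg.Agent.Fus.FormFusion
import Cfsg.Agent.Class.StdForms

/-!
# Linear and symplectic groups in characteristic two: no proper strongly closed subgroups
-/

set_option autoImplicit false

namespace Cfsg.Lib.KFS

open Subgroup Cfsg Cfsg.FusionSystem Cfsg.Lib.Fus Cfsg.Lib.Fus.Grp

variable {G : Type*} [Group G] [Finite G]

theorem NoSC.of_surj {L : Type*} [Group L] (h : NoSC G) (π : G →* L)
    (hπ : Function.Surjective π) : NoSC L := by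
  have : Finite L := Finite.of_surjective π hπ
  obtain ⟨S, hS⟩ := exists_isSylowIn 2 (⊤ : Subgroup G)
  have hsyl : IsSylowIn 2 (S.map π) ⊤ := by
    have := hS.map π
    rwa [← MonoidHom.range_eq_map, MonoidHom.range_eq_top.2 hπ] at this
  refine NoSC.of_one hsyl fun T hT h1 => ?_
  have h2 : IsStronglyClosed (T.comap π ⊓ S) S := by
    refine ⟨inf_le_right, fun x hx g hg => ⟨?_, hg⟩⟩
    have := hT.2 (π x) hx.1 (π g) (by simpa using mem_map_of_mem π hg)
    simpa [mem_comap] using this
  have h3 : T.comap π ⊓ S ≠ ⊥ := by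
    intro hb
    refine h1 (eq_bot_iff.2 fun t ht => ?_)
    obtain ⟨s, hs, rfl⟩ := hT.1 ht
    have : s ∈ T.comap π ⊓ S := ⟨ht, hs⟩
    rw [hb, mem_bot] at this
    simp [this]
  exact map_le_iff_le_comap.2 ((h.le hS h2 h3).trans inf_le_left)

namespace RedA

theorem noSC_psl {K : Type*} [Field K] [Fintype K] [CharP K 2] {n : ℕ} (hn : 3 ≤ n) :
    NoSC (Matrix.ProjectiveSpecialLinearGroup (Fin n) K) := by
  have h : SLRep
      (Matrix.SpecialLinearGroup.toLin' : Matrix.SpecialLinearGroup (Fin n) K →* _) := by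
    refine ⟨Matrix.SpecialLinearGroup.toLin'_injective, fun g => ?_, fun φ v h => ?_⟩
    · rw [Matrix.SpecialLinearGroup.toLin'_to_linearMap, LinearMap.det_toLin', g.2]
    · refine ⟨⟨LinearMap.toMatrix' (LinearMap.transvection φ v), ?_⟩, fun x => ?_⟩
      · rw [LinearMap.det_toMatrix', LinearMap.transvection.det, h, add_zero]
      · change Matrix.toLin' (LinearMap.toMatrix' (LinearMap.transvection φ v)) x = _
        rw [Matrix.toLin'_toMatrix', LinearMap.transvection.apply]
  have : Finite (Matrix.SpecialLinearGroup (Fin n) K) := Subtype.finite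
  obtain ⟨S, hS⟩ := exists_isSylowIn 2 (⊤ : Subgroup (Matrix.SpecialLinearGroup (Fin n) K))
  have hD := h.simpleData (p := 2) (by simpa using hn) hS
  exact (NoSC.of_one hS fun T hT h1 => hD.closed T hT.1 h1 hT.2).of_surj (QuotientGroup.mk' _)
    (QuotientGroup.mk'_surjective _)

theorem noSC_psp {K : Type*} [Field K] [Fintype K] [CharP K 2] {m : ℕ} (hm : 2 ≤ m)
    (hex : m = 2 → 3 ≤ Fintype.card K) : NoSC (PSp m K) := by
  classical
  have hg := Cfsg.Lib.Class.Form.good_of_isAlt (Cfsg.Lib.Class.sympBilin m K)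
    (Cfsg.Lib.Class.sympBilin_nondegenerate m) (Cfsg.Lib.Class.sympBilin_isAlt m)
  have halt : ∀ v, Cfsg.Lib.Class.sympBilin m K v v = 0 := Cfsg.Lib.Class.sympBilin_isAlt m
  have hdet : ∀ g : Cfsg.Lib.Class.Form.isomGroup (Cfsg.Lib.Class.sympBilin m K),
      LinearEquiv.det g.1 = 1 := by
    intro g
    have hm : g ∈ Subgroup.closure hg.reflSet := by rw [hg.closure_reflSet]; trivial
    induction hm using Subgroup.closure_induction with
    | mem x hx =>
      obtain ⟨d, c, hc, rfl⟩ := hx
      refine Units.ext ?_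
      have := Cfsg.Lib.Class.Form.det_reflEquiv _ d c (hg.one_add_ne hc)
      rw [halt, mul_zero, add_zero] at this
      exact this
    | one => simp
    | mul a b _ _ ha hb => simp [ha, hb]
    | inv a _ ha => simp [ha]
  have h : FormRep ((Cfsg.Lib.Class.Isom (sympForm m K)).subtype.comp
      (Cfsg.Lib.Class.spEquivIsom m K).toMonoidHom) (Cfsg.Lib.Class.sympBilin m K) (-1) := by
    refine ⟨hg, by simp, by simp, fun w => ⟨0, by simp [halt]⟩,
      fun U _ _ s => ⟨0, U.zero_mem, by simp⟩,
      Subtype.val_injective.comp (Cfsg.Lib.Class.spEquivIsom m K).injective, fun g u v => ?_,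
      fun g => ?_, fun f hf _ => ?_⟩
    · simpa using (Cfsg.Lib.Class.spEquivIsom m K g).2 u v
    · rw [← LinearEquiv.coe_det]
      exact congrArg Units.val (hdet ⟨_, fun u v => by
        simpa using (Cfsg.Lib.Class.spEquivIsom m K g).2 u v⟩)
    · exact ⟨(Cfsg.Lib.Class.spEquivIsom m K).symm ⟨f, fun u v => by simpa using hf u v⟩, by simp⟩
  have : Finite (Matrix.symplecticGroup (Fin m) K) := Subtype.finite
  obtain ⟨S, hS⟩ := exists_isSylowIn 2 (⊤ : Subgroup (Matrix.symplecticGroup (Fin m) K))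
  refine (NoSC.of_one hS fun T hT h1 => ?_).of_surj (QuotientGroup.mk' _)
    (QuotientGroup.mk'_surjective _)
  have hb : S ≠ ⊥ := fun e => h1 (le_bot_iff.1 (e ▸ hT.1))
  obtain ⟨e, he0, he, heS, -⟩ := h.exists_fixed_isotropic hS.isPGroup hb
  refine h.closed (p := 2) (by simp; omega) (fun _ => ?_) hS he0 he heS T hT.1 h1 hT.2
  by_cases h2 : m = 2
  · left
    obtain ⟨a, ha⟩ : ∃ a : K, a ∉ ({0, 1} : Finset K) := by
      by_contra hc
      push Not at hc
      have h1 := Finset.card_le_card (fun a _ => hc a : (Finset.univ : Finset K) ⊆ {0, 1})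
      have h3 := hex h2
      have h4 : ({0, 1} : Finset K).card ≤ 2 := Finset.card_le_two
      rw [Finset.card_univ] at h1
      omega
    exact ⟨a, by simpa using ha⟩
  · right
    simp
    omega

end RedA

end Cfsg.Lib.KFS
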